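import Mathlib
import Cfsg.Agent.Lib.Helper58.SuzA.Defs

set_option autoImplicit false

/-! Project SuzA (S3162, helper58), package (5) PkgSemi: additive injections of `F = F_{q²}`
compatible with the norm `a ↦ a ^ (q + 1)` are the maps `a ↦ l * ρ a`. -/

universe u

namespace Cfsg.Agent.Lib.Helper4.SuzA

open Cfsg.Agent.Lib.Helper58.SuzA

/-- the abstract core: over a finite field with an involutory "conjugation" `a ↦ a ^ q` in
characteristic two, a norm-compatible additive injection fixing `1` is multiplicative -/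
theorem semi_core {F : Type u} [Field F] [Finite F] (q : ℕ) (hq0 : q ≠ 0)
    (hq2 : ∀ a b : F, (a + b) ^ q = a ^ q + b ^ q)
    (hqq : ∀ a : F, (a ^ q) ^ q = a)
    (h2 : ∀ a : F, a + a = 0)
    (hsq : ∀ b : F, b ^ q = b → ∃ l : F, l ^ q = l ∧ l * l = b)
    (θ : F) (hθ : θ ^ q ≠ θ)
    (A B : F → F) (hA : ∀ a a', A (a + a') = A a + A a') (hinj : Function.Injective A)
    (hA1 : A 1 = 1)
    (hB : ∀ b b', b ^ q = b → b' ^ q = b' → B (b + b') = B b + B b')
    (hN : ∀ a, A a ^ (q + 1) = B (a ^ (q + 1))) :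
    ∀ x y, A (x * y) = A x * A y := by
  have hsurj : Function.Surjective A := Finite.injective_iff_surjective.1 hinj
  have hA0 : A 0 = 0 := by
    have h := hA 0 0
    simpa using h
  have hB0 : B 0 = 0 := by
    have h := hB 0 0 (zero_pow hq0) (zero_pow hq0)
    simpa using h
  have hchar : ∀ x y : F, x + y = 0 → x = y := by
    intro x y h
    calc x = x + (y + y) := by rw [h2 y, add_zero]
      _ = (x + y) + y := by ring
      _ = y := by rw [h, zero_add]
  have fq_add : ∀ b b' : F, b ^ q = b → b' ^ q = b' → (b + b') ^ q = b + b' := by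
    intro b b' hb hb'
    rw [hq2, hb, hb']
  have fq_mul : ∀ b b' : F, b ^ q = b → b' ^ q = b' → (b * b') ^ q = b * b' := by
    intro b b' hb hb'
    rw [mul_pow, hb, hb']
  have fq_of_mul : ∀ c d v : F, c ^ q = c → d ^ q = d → c ≠ 0 → c * v = d → v ^ q = v := by
    intro c d v hc hd hc0 h
    have h1 : c * v ^ q = c * v := by
      calc c * v ^ q = c ^ q * v ^ q := by rw [hc]
        _ = (c * v) ^ q := (mul_pow c v q).symm
        _ = d ^ q := by rw [h]
        _ = d := hd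
        _ = c * v := h.symm
    exact mul_left_cancel₀ hc0 h1
  have hNq : ∀ a : F, (a ^ (q + 1)) ^ q = a ^ (q + 1) := by
    intro a
    calc (a ^ (q + 1)) ^ q = (a ^ q) ^ (q + 1) := by rw [← pow_mul, mul_comm, pow_mul]
      _ = (a ^ q) ^ q * a ^ q := pow_succ _ _
      _ = a * a ^ q := by rw [hqq]
      _ = a ^ (q + 1) := by rw [pow_succ, mul_comm]
  have hβq : ∀ a a' : F, (a ^ q * a' + a * a' ^ q) ^ q = a ^ q * a' + a * a' ^ q := by
    intro a a'
    rw [hq2, mul_pow, mul_pow, hqq, hqq, add_comm]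
  have hNadd : ∀ a a' : F, (a + a') ^ (q + 1) =
      a ^ (q + 1) + a' ^ (q + 1) + (a ^ q * a' + a * a' ^ q) := by
    intro a a'
    rw [pow_succ, hq2, pow_succ, pow_succ]
    ring
  have hpolar : ∀ a a', B (a ^ q * a' + a * a' ^ q) = (A a) ^ q * A a' + A a * (A a') ^ q := by
    intro a a'
    have h1 := hN (a + a')
    rw [hA, hNadd (A a) (A a'), hNadd a a', hB _ _ (fq_add _ _ (hNq a) (hNq a')) (hβq a a'),
      hB _ _ (hNq a) (hNq a'), ← hN a, ← hN a'] at h1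
    exact (add_left_cancel h1).symm
  have hBinj : ∀ b, b ^ q = b → B b = 0 → b = 0 := by
    intro b hb hBb
    obtain ⟨l, hl, hll⟩ := hsq b hb
    have h1 : l ^ (q + 1) = b := by rw [pow_succ, hl, hll]
    have h3 := hN l
    rw [h1, hBb] at h3
    have h4 : A l = 0 := (pow_eq_zero_iff (Nat.succ_ne_zero q)).1 h3
    have h5 : l = 0 := hinj (h4.trans hA0.symm)
    rw [← hll, h5, mul_zero]
  have hline : ∀ l : F, l ^ q = l → ∀ a, ∃ κ : F, κ ^ q = κ ∧ A (l * a) = κ * A a := by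
    intro l hl a
    by_cases ha : a = 0
    · refine ⟨0, zero_pow hq0, ?_⟩
      rw [ha, mul_zero, hA0, mul_zero]
    · have hAa : A a ≠ 0 := fun h => ha (hinj (h.trans hA0.symm))
      have h1 := hpolar a (l * a)
      have h3 : a ^ q * (l * a) + a * (l * a) ^ q = 0 := by
        rw [mul_pow, hl]
        have h4 : a ^ q * (l * a) + a * (l * a ^ q) = (l * (a ^ q * a)) + (l * (a ^ q * a)) := by
          ring
        rw [h4, h2]
      rw [h3, hB0] at h1
      have h5 : A a * (A (l * a)) ^ q = (A a) ^ q * A (l * a) := by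
        apply hchar
        rw [add_comm]
        exact h1.symm
      refine ⟨A (l * a) / A a, ?_, ?_⟩
      · rw [div_pow, div_eq_div_iff (pow_ne_zero q hAa) hAa, mul_comm, h5, mul_comm]
      · rw [div_mul_cancel₀ _ hAa]
  obtain ⟨a₂, ha₂⟩ := hsurj θ
  have hP1 : ∀ l : F, l ^ q = l → (A l) ^ q = A l ∧ ∀ a, A (l * a) = A l * A a := by
    intro l hl
    obtain ⟨κ₁, hκ₁, hκ₁'⟩ := hline l hl 1
    rw [mul_one, hA1, mul_one] at hκ₁'
    have key : ∀ a a' κ κ' : F, A (l * a) = κ * A a → A (l * a') = κ' * A a' →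
        ∃ κ'' : F, κ'' ^ q = κ'' ∧ (κ'' + κ) * A a = (κ' + κ'') * A a' := by
      intro a a' κ κ' h h'
      obtain ⟨κ'', hκ'', h''⟩ := hline l hl (a + a')
      refine ⟨κ'', hκ'', ?_⟩
      rw [mul_add, hA, hA, h, h'] at h''
      apply hchar
      have h4 : (κ'' + κ) * A a + (κ' + κ'') * A a' =
          (κ * A a + κ' * A a') + κ'' * (A a + A a') := by ring
      rw [h4, h'', h2]
    have case1 : ∀ a, (A a) ^ q ≠ A a → A (l * a) = κ₁ * A a := by
      intro a ha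
      obtain ⟨κ, hκ, h⟩ := hline l hl a
      obtain ⟨κ'', hκ'', h3⟩ := key a 1 κ κ₁ h (by rw [mul_one, hA1, mul_one]; exact hκ₁')
      rw [hA1, mul_one] at h3
      by_cases hz : κ'' + κ = 0
      · rw [hz, zero_mul] at h3
        have e1 : κ'' = κ := hchar _ _ hz
        have e2 : κ₁ = κ'' := hchar _ _ h3.symm
        rw [h, e2, e1]
      · exfalso
        apply ha
        exact fq_of_mul _ _ _ (fq_add _ _ hκ'' hκ) (fq_add _ _ hκ₁ hκ'') hz h3
    have hθ2 : A (l * a₂) = κ₁ * θ := by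
      have h := case1 a₂ (by rw [ha₂]; exact hθ)
      rwa [ha₂] at h
    refine ⟨by rw [hκ₁']; exact hκ₁, ?_⟩
    intro a
    rw [hκ₁']
    by_cases ha : (A a) ^ q = A a
    · obtain ⟨κ, hκ, h⟩ := hline l hl a
      obtain ⟨κ'', hκ'', h3⟩ := key a a₂ κ κ₁ h (by rw [ha₂]; exact hθ2)
      rw [ha₂] at h3
      by_cases hz : κ₁ + κ'' = 0
      · rw [hz, zero_mul] at h3
        have e2 : κ₁ = κ'' := hchar _ _ hz
        rw [h]
        apply hchar
        have h4 : κ * A a + κ₁ * A a = (κ'' + κ) * A a := by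
          rw [e2]
          ring
        rw [h4, h3]
      · exfalso
        apply hθ
        exact fq_of_mul _ _ _ (fq_add _ _ hκ₁ hκ'') (fq_mul _ _ (fq_add _ _ hκ'' hκ) ha) hz
          h3.symm
    · exact case1 a ha
  have hBA : ∀ μ : F, μ ^ q = μ → B μ = A μ := by
    intro μ hμ
    obtain ⟨l, hl, hll⟩ := hsq μ hμ
    have h1 : l ^ (q + 1) = μ := by rw [pow_succ, hl, hll]
    have h3 := hN l
    rw [h1] at h3
    rw [← h3, pow_succ, (hP1 l hl).1, ← (hP1 l hl).2, hll]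
  have hNA : ∀ a, A a ^ (q + 1) = A (a ^ (q + 1)) := fun a => (hN a).trans (hBA _ (hNq a))
  have hpolarA : ∀ a a', A (a ^ q * a' + a * a' ^ q) = (A a) ^ q * A a' + A a * (A a') ^ q :=
    fun a a' => (hBA _ (hβq a a')).symm.trans (hpolar a a')
  have hconj : ∀ a, A (a ^ q) = (A a) ^ q := by
    intro a
    have h := hpolarA a 1
    rw [one_pow, mul_one, mul_one, hA1, one_pow, mul_one, mul_one, hA] at h
    exact add_right_cancel h
  -- the quadratic equation of θ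
  have ht : (θ + θ ^ q) ^ q = θ + θ ^ q := by rw [hq2, hqq, add_comm]
  have hν : (θ ^ (q + 1)) ^ q = θ ^ (q + 1) := hNq θ
  have ht0 : θ + θ ^ q ≠ 0 := fun h => hθ (hchar _ _ h).symm
  have hθθ : θ * θ = (θ + θ ^ q) * θ + θ ^ (q + 1) := by
    calc θ * θ = θ * θ + (θ ^ q * θ + θ ^ q * θ) := by rw [h2, add_zero]
      _ = (θ + θ ^ q) * θ + θ ^ (q + 1) := by
        rw [pow_succ]
        ring
  have hθ'θ' : A θ * A θ = A (θ + θ ^ q) * A θ + A (θ ^ (q + 1)) := by
    rw [hA, hconj, ← hNA]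
    calc A θ * A θ = A θ * A θ + ((A θ) ^ q * A θ + (A θ) ^ q * A θ) := by rw [h2, add_zero]
      _ = (A θ + (A θ) ^ q) * A θ + (A θ) ^ (q + 1) := by
        rw [pow_succ]
        ring
  have hdec : ∀ x : F, ∃ α β : F, α ^ q = α ∧ β ^ q = β ∧ x = α + β * θ := by
    intro x
    have hβ : ((x + x ^ q) / (θ + θ ^ q)) ^ q = (x + x ^ q) / (θ + θ ^ q) := by
      rw [div_pow, hq2, hqq, ht, add_comm]
    have hβt : (x + x ^ q) / (θ + θ ^ q) * (θ + θ ^ q) = x + x ^ q := div_mul_cancel₀ _ ht0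
    refine ⟨x + (x + x ^ q) / (θ + θ ^ q) * θ, (x + x ^ q) / (θ + θ ^ q), ?_, hβ, ?_⟩
    · apply hchar
      rw [hq2, mul_pow, hβ]
      have h4 : x ^ q + (x + x ^ q) / (θ + θ ^ q) * θ ^ q +
          (x + (x + x ^ q) / (θ + θ ^ q) * θ) =
          (x + x ^ q) + (x + x ^ q) / (θ + θ ^ q) * (θ + θ ^ q) := by ring
      rw [h4, hβt, h2]
    · rw [add_assoc, h2, add_zero]
  intro x y
  obtain ⟨α, β, hα, hβ, rfl⟩ := hdec x
  obtain ⟨γ, δ, hγ, hδ, rfl⟩ := hdec y
  have hAlin : ∀ α β : F, β ^ q = β → A (α + β * θ) = A α + A β * A θ := by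
    intro α β hβ
    rw [hA, (hP1 β hβ).2]
  have hprod : (α + β * θ) * (γ + δ * θ) = (α * γ + β * δ * θ ^ (q + 1)) +
      (α * δ + β * γ + β * δ * (θ + θ ^ q)) * θ := by
    have h4 : (α + β * θ) * (γ + δ * θ) =
        α * γ + (α * δ + β * γ) * θ + β * δ * (θ * θ) := by ring
    rw [h4, hθθ]
    ring
  have e1 : A (α * γ) = A α * A γ := (hP1 α hα).2 γ
  have e2 : A (β * δ * θ ^ (q + 1)) = A β * A δ * A (θ ^ (q + 1)) := by
    rw [mul_assoc, (hP1 β hβ).2, (hP1 δ hδ).2, mul_assoc]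
  have e3 : A (α * δ) = A α * A δ := (hP1 α hα).2 δ
  have e4 : A (β * γ) = A β * A γ := (hP1 β hβ).2 γ
  have e5 : A (β * δ * (θ + θ ^ q)) = A β * A δ * A (θ + θ ^ q) := by
    rw [mul_assoc, (hP1 β hβ).2, (hP1 δ hδ).2, mul_assoc]
  have hcoef : (α * δ + β * γ + β * δ * (θ + θ ^ q)) ^ q =
      α * δ + β * γ + β * δ * (θ + θ ^ q) :=
    fq_add _ _ (fq_add _ _ (fq_mul _ _ hα hδ) (fq_mul _ _ hβ hγ))
      (fq_mul _ _ (fq_mul _ _ hβ hδ) ht)
  rw [hprod, hAlin _ _ hcoef, hAlin α β hβ, hAlin γ δ hδ, hA, hA, hA, e1, e2, e3, e4, e5]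
  have h6 : (A α + A β * A θ) * (A γ + A δ * A θ) =
      A α * A γ + (A α * A δ + A β * A γ) * A θ + A β * A δ * (A θ * A θ) := by ring
  rw [h6, hθ'θ']
  ring

theorem pkgSemi : PkgSemi.{u} := by
  intro F _ _ n hn hcard A B hA hinj hB hN
  classical
  have hprime : Fact (Nat.Prime 2) := ⟨Nat.prime_two⟩
  have hcard' : Fintype.card F = 2 ^ (n * 2) := by rw [hcard, pow_mul]
  have hchar : CharP F 2 := charP_of_card_eq_prime_pow hcard'
  have hq0 : (2 : ℕ) ^ n ≠ 0 := pow_ne_zero n (by norm_num)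
  have hqge : 2 ≤ 2 ^ n := by
    calc 2 = 2 ^ 1 := (pow_one 2).symm
      _ ≤ 2 ^ n := Nat.pow_le_pow_right (by norm_num) hn
  have hq2 : ∀ a b : F, (a + b) ^ (2 ^ n) = a ^ (2 ^ n) + b ^ (2 ^ n) :=
    fun a b => add_pow_char_pow a b 2 n
  have hqq : ∀ a : F, (a ^ (2 ^ n)) ^ (2 ^ n) = a := by
    intro a
    have h := FiniteField.pow_card a
    rw [hcard, pow_two, pow_mul] at h
    exact h
  have h2 : ∀ a : F, a + a = 0 := CharTwo.add_self_eq_zero
  have hsq : ∀ b : F, b ^ (2 ^ n) = b → ∃ l : F, l ^ (2 ^ n) = l ∧ l * l = b := by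
    intro b hb
    obtain ⟨k, rfl⟩ : ∃ k, n = k + 1 := ⟨n - 1, by omega⟩
    refine ⟨b ^ (2 ^ k), ?_, ?_⟩
    · rw [pow_right_comm, hb]
    · rw [← pow_add, ← two_mul, ← pow_succ']
      exact hb
  have hθ : ∃ θ : F, θ ^ (2 ^ n) ≠ θ := by
    by_contra hcon0
    have hcon : ∀ θ : F, θ ^ (2 ^ n) = θ := fun θ => by_contra (fun h => hcon0 ⟨θ, h⟩)
    have h1 : ∀ x : Fˣ, x ^ (2 ^ n - 1) = 1 := by
      intro x
      apply Units.ext
      have h3 := hcon (x : F)
      have h4 : (x : F) ^ (2 ^ n - 1) * x = 1 * x := by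
        rw [← pow_succ, Nat.sub_add_cancel (by omega), one_mul]
        exact h3
      have h5 := mul_right_cancel₀ x.ne_zero h4
      rw [Units.val_pow_eq_pow_val, h5, Units.val_one]
    have h6 := (FiniteField.forall_pow_eq_one_iff F (2 ^ n - 1)).1 h1
    rw [hcard] at h6
    have h7 := Nat.le_of_dvd (by omega) h6
    have h8 : 2 ^ n * 2 ≤ (2 ^ n) ^ 2 := by
      rw [pow_two]
      exact Nat.mul_le_mul_left _ hqge
    omega
  obtain ⟨θ, hθ⟩ := hθ
  have hA0 : A 0 = 0 := by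
    have h := hA 0 0
    simpa using h
  have hA1 : A 1 ≠ 0 := fun h => one_ne_zero (hinj (h.trans hA0.symm))
  have hmul := semi_core (2 ^ n) hq0 hq2 hqq h2 hsq θ hθ (fun a => (A 1)⁻¹ * A a)
    (fun b => ((A 1) ^ (2 ^ n + 1))⁻¹ * B b)
    (fun a a' => by
      show (A 1)⁻¹ * A (a + a') = (A 1)⁻¹ * A a + (A 1)⁻¹ * A a'
      rw [hA, mul_add])
    (fun a a' h => hinj (mul_left_cancel₀ (inv_ne_zero hA1) h))
    (inv_mul_cancel₀ hA1)
    (fun b b' hb hb' => by
      show ((A 1) ^ (2 ^ n + 1))⁻¹ * B (b + b') =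
        ((A 1) ^ (2 ^ n + 1))⁻¹ * B b + ((A 1) ^ (2 ^ n + 1))⁻¹ * B b'
      rw [hB b b' hb hb', mul_add])
    (fun a => by
      show ((A 1)⁻¹ * A a) ^ (2 ^ n + 1) = ((A 1) ^ (2 ^ n + 1))⁻¹ * B (a ^ (2 ^ n + 1))
      rw [mul_pow, inv_pow, hN a])
  have hinj' : Function.Injective (fun a => (A 1)⁻¹ * A a) :=
    fun a a' h => hinj (mul_left_cancel₀ (inv_ne_zero hA1) h)
  let f : F →+* F :=
    { toFun := fun a => (A 1)⁻¹ * A a
      map_one' := inv_mul_cancel₀ hA1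
      map_mul' := hmul
      map_zero' := by
        show (A 1)⁻¹ * A 0 = 0
        rw [hA0, mul_zero]
      map_add' := fun a a' => by
        show (A 1)⁻¹ * A (a + a') = (A 1)⁻¹ * A a + (A 1)⁻¹ * A a'
        rw [hA, mul_add] }
  refine ⟨A 1, hA1, RingEquiv.ofBijective f ⟨hinj', Finite.injective_iff_surjective.1 hinj'⟩, ?_⟩
  intro a
  show A a = A 1 * ((A 1)⁻¹ * A a)
  rw [mul_inv_cancel_left₀ hA1]

end Cfsg.Agent.Lib.Helper4.SuzA
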